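import Cfsg.Agent.H920.HT.RegDefs

/-!
# S4933, box H2 (E): no totally singular invariant subspace of dimension `2 c` (helper79)
-/

set_option autoImplicit false
set_option linter.unusedSectionVars false

namespace Cfsg.Agent.H79.HT

open Submodule Module Cfsg.Agent.H324.AP Cfsg.Agent.H920.HT

universe u v

variable {F : Type u} [Field F] {V : Type v} [AddCommGroup V] [Module F V]
  {τ : F →+* F} {B : V → V → F} {G : Subgroup (V ≃ₗ[F] V)} {p a c : ℕ} {h : SplF τ B G}
  {P : Subgroup (V ≃ₗ[F] V)} {D : Fin 2 → Submodule F V}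

/-- an invariant totally singular subspace is orthogonal to the blocks -/
theorem le_perp_of_ts (H : TwoB p a c h P D) {W : Submodule F V} (hW : ∀ x ∈ P, ∀ w ∈ W, x w ∈ W)
    (hti : ∀ u ∈ W, ∀ v ∈ W, B u v = 0) (i : Fin 2) : W ≤ h.perp (D i) := by
  -- `W ⊓ D i = ⊥`
  have hbot : W ⊓ D i = ⊥ := by
    obtain ⟨y, hy, hy1⟩ : ∃ y ∈ triv P (h.perp (D i)), y ≠ 1 := (Subgroup.ne_bot_iff_exists_ne_one.1 (H.dec.ne i)).elim
      fun y hy => ⟨y.1, y.2, fun e => hy (Subtype.ext e)⟩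
    rcases H.irr i y hy hy1 (W ⊓ D i) inf_le_right (fun m hm => ⟨hW y hy.1 m hm.1, H.dec.inv i y hy.1 m hm.2⟩) with h1 | h1
    · exact h1
    · exfalso
      have h2 : D i ≤ W := inf_eq_right.1 h1
      apply (H.frm.minS i).ne
      rw [eq_bot_iff]
      intro v hv
      exact (H.frm.minS i).nd v hv fun w hw => hti v (h2 hv) w (h2 hw)
  have hfix : W ≤ fixP (triv P (h.perp (D i))) := by
    intro w hw y hy
    have h1 : w ∈ D i ⊔ h.perp (D i) := by
      rw [(H.dec.compl i).sup_eq_top]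
      trivial
    obtain ⟨d, hd, d', hd', rfl⟩ := Submodule.mem_sup.1 h1
    have h2 : y (d + d') - (d + d') ∈ W ⊓ D i := by
      refine ⟨W.sub_mem (hW y hy.1 _ hw) hw, ?_⟩
      have e : y (d + d') - (d + d') = y d - d := by
        rw [map_add, hy.2 d' hd']
        abel
      rw [e]
      exact (D i).sub_mem (H.dec.inv i y hy.1 d hd) hd
    rw [hbot, Submodule.mem_bot, sub_eq_zero] at h2
    exact h2
  rwa [H.dec.fix_eq i] at hfix

/-- **no totally singular invariant subspace of dimension `2 c`** -/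
theorem no_ts [FiniteDimensional F V] (H : TwoB p a c h P D) {W : Submodule F V} (hW : ∀ x ∈ P, ∀ w ∈ W, x w ∈ W)
    (hti : ∀ u ∈ W, ∀ v ∈ W, B u v = 0) (hd : finrank F W = 2 * c) (hdim : finrank F V < 6 * c) : False := by
  have h0 := le_perp_of_ts H hW hti 0
  have h1 := le_perp_of_ts H hW hti 1
  have h01 : D 1 ≤ h.perp (D 0) := H.dec.le 0 1 (by decide)
  have h10 : D 0 ≤ h.perp (D 1) := H.dec.le 1 0 (by decide)
  have hdis : D 0 ⊓ D 1 = ⊥ := by
    rw [eq_bot_iff, ← (H.dec.compl 0).inf_eq_bot]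
    exact inf_le_inf_left _ h01
  have hdis' : (D 0 ⊔ D 1) ⊓ W = ⊥ := by
    rw [eq_bot_iff]
    rintro v ⟨hv, hvW⟩
    obtain ⟨x, hx, y, hy, rfl⟩ := Submodule.mem_sup.1 hv
    have hx0 : x ∈ D 0 ⊓ h.perp (D 0) := by
      refine ⟨hx, ?_⟩
      have e : x = (x + y) - y := by abel
      rw [e]
      exact (h.perp (D 0)).sub_mem (h0 hvW) (h01 hy)
    have hy0 : y ∈ D 1 ⊓ h.perp (D 1) := by
      refine ⟨hy, ?_⟩
      have e : y = (x + y) - x := by abel
      rw [e]
      exact (h.perp (D 1)).sub_mem (h1 hvW) (h10 hx)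
    rw [(H.dec.compl 0).inf_eq_bot, Submodule.mem_bot] at hx0
    rw [(H.dec.compl 1).inf_eq_bot, Submodule.mem_bot] at hy0
    rw [hx0, hy0, add_zero]
    exact Submodule.zero_mem _
  have e1 := Submodule.finrank_sup_add_finrank_inf_eq (D 0) (D 1)
  have e2 := Submodule.finrank_sup_add_finrank_inf_eq (D 0 ⊔ D 1) W
  rw [hdis, finrank_bot, H.dim, H.dim] at e1
  rw [hdis', finrank_bot, hd] at e2
  have e3 := Submodule.finrank_le ((D 0 ⊔ D 1) ⊔ W)
  omega

end Cfsg.Agent.H79.HT
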